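import Mathlib

/-!
# S5916 (helper911): the solutions of `[v, t v] = 0`, polynomial equations

Variables are named after the roots (`chevE8` numbering); characteristic two.
-/

set_option autoImplicit false

namespace Cfsg.Agent.H911.L16

variable {K : Type*} [Field K]

theorem add_self' (h2 : (2 : K) = 0) (x : K) : x + x = 0 := by linear_combination x * h2

/-- weight 1 -/
theorem solve1 (h2 : (2 : K) = 0) {c v128 v124 v127 v123 v163 v162 v148 v143 v137 v131 v147 v142 v136 v130 : K}
    (e1 : v162 ^ 2 = 0) (e2 : v123 ^ 2 = 0) (e3 : v130 ^ 2 = 0)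
    (e4 : v128 * v123 + v124 * v127 + v124 * v123 + c ^ 2 = 0)
    (e5 : v128 * v123 + v124 * v127 + v124 * v123 + v124 ^ 2 = 0)
    (e6 : v148 * v130 + v143 * v136 + v143 * v130 + v137 * v142 + v131 * v147 + v131 * v142 + v147 * v130 +
      v142 * v136 + v142 * v130 + c ^ 2 = 0)
    (e7 : v148 * v130 + v143 * v136 + v137 * v142 + v137 * v130 + v131 * v147 + v131 * v136 + v147 * v130 +
      v142 * v136 + v136 * v130 + v163 * v162 = 0)
    (e8 : v148 * v130 + v143 * v136 + v143 * v130 + v137 * v142 + v131 * v147 + v131 * v142 + v147 * v130 +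
      v142 * v136 + v142 * v130 + v142 ^ 2 = 0)
    (e9 : v148 * v130 + v143 * v136 + v137 * v142 + v137 * v130 + v131 * v147 + v131 * v136 + v147 * v130 +
      v142 * v136 + v136 * v130 + v136 ^ 2 + v163 * v162 + v163 ^ 2 = 0)
    (e10 : v128 * v123 + v124 * v127 + v127 * v123 + v148 * v130 + v143 * v136 + v143 * v130 + v137 * v142 +
      v137 * v130 + v131 * v147 + v131 * v142 + v131 * v136 + v131 * v130 + c ^ 2 = 0)
    (e11 : v128 * v123 + v124 * v127 + v127 * v123 + v127 ^ 2 + v148 * v130 + v143 * v136 + v143 * v130 +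
      v137 * v142 + v137 * v130 + v131 * v147 + v131 * v142 + v131 * v136 + v131 * v130 + v131 ^ 2 = 0) :
    c = 0 ∧ v124 = 0 ∧ v123 = 0 ∧ v162 = 0 ∧ v142 = 0 ∧ v130 = 0 ∧
      ((v127 = 0 ∧ v163 = 0 ∧ v131 = 0 ∧ v136 = 0) ∨
        (v127 = v131 ∧ v163 = 0 ∧ v136 = 0 ∧ v147 = 0) ∨ (v127 = 0 ∧ v131 = 0 ∧ v136 = v163 ∧ v143 = 0)) := by
  have z162 : v162 = 0 := by simpa using e1
  have z123 : v123 = 0 := by simpa using e2
  have z130 : v130 = 0 := by simpa using e3
  subst z162 z123 z130
  have sq : ∀ x y : K, x ^ 2 + y ^ 2 = 0 → x = y := by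
    intro x y h
    have h1 : (x + y) ^ 2 = 0 := by linear_combination h + x * y * h2
    have h3 : x + y = 0 := by simpa using h1
    linear_combination h3 - y * h2
  simp only [mul_zero, add_zero] at e4 e5 e6 e7 e8 e9 e10 e11
  have a1 : v124 = c := sq _ _ (by linear_combination e5 + e4 - v124 * v127 * h2)
  have a2 : v142 = c := sq _ _ (by
    linear_combination e8 + e6 - (v143 * v136 + v137 * v142 + v131 * v147 + v131 * v142 + v142 * v136) * h2)
  have a3 : v136 = v163 := sq _ _ (by
    linear_combination e9 + e7 - (v143 * v136 + v137 * v142 + v131 * v147 + v131 * v136 + v142 * v136) * h2)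
  subst a1
  subst a2
  have b1 : v142 * (v127 + v142) = 0 := by linear_combination e4
  have b2 : v131 * v142 + v142 ^ 2 + v131 * v136 = 0 := by
    linear_combination e6 + e7 - (v143 * v136 + v137 * v142 + v131 * v147 + v142 * v136) * h2
  have b3 : v142 * (v136 + v131) = 0 := by
    linear_combination e10 + e4 + e7 - (v143 * v136 + v137 * v142 + v131 * v147 + v131 * v136 + v142 * v127 +
      v142 ^ 2) * h2
  have b4 : v127 = v131 + v142 := sq _ _ (by
    linear_combination e11 + e10 - (v142 * v127 + v143 * v136 + v137 * v142 + v131 * v147 + v131 * v142 +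
      v131 * v136 - v131 * v142) * h2)
  have c0 : v142 = 0 := by
    by_contra hc
    have b5 := (mul_eq_zero.1 b1).resolve_left hc
    have b6 : v131 = 0 := by linear_combination b5 - b4 - v142 * h2
    rw [b6] at b2
    apply hc
    simpa using b2
  subst c0
  simp only [mul_zero, zero_mul, add_zero, zero_add] at e7 e10 e11 b2 b4
  subst b4
  refine ⟨rfl, rfl, rfl, rfl, rfl, rfl, ?_⟩
  by_cases hw : v127 = 0
  · subst hw
    simp only [zero_mul, add_zero] at e7
    rcases mul_eq_zero.1 e7 with h | h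
    · exact Or.inr (Or.inr ⟨rfl, rfl, a3, h⟩)
    · exact Or.inl ⟨rfl, by rw [← a3, h], rfl, h⟩
  · have b2' : v127 * v136 = 0 := by linear_combination b2
    have h3 : v136 = 0 := (mul_eq_zero.1 b2').resolve_left hw
    subst h3
    simp only [mul_zero, zero_add, add_zero] at e7
    exact Or.inr (Or.inl ⟨rfl, a3.symm, rfl, (mul_eq_zero.1 e7).resolve_left hw⟩)

/-- weight 3 -/
theorem solve3 (h2 : (2 : K) = 0) {v2 v1 v129 v125 v184 v174 v157 v154 v156 v153 v172 v167 v171 v166 : K}
    (e1 : v174 ^ 2 = 0) (e2 : v166 ^ 2 = 0) (e3 : v1 ^ 2 + v125 ^ 2 = 0) (e4 : v153 ^ 2 + v125 ^ 2 = 0)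
    (e5 : v184 * v174 + v184 ^ 2 = 0) (e6 : v153 ^ 2 + v166 ^ 2 + v184 * v174 + v174 ^ 2 = 0)
    (e8 : v172 * v166 + v167 * v171 + v171 * v166 + v171 ^ 2 = 0)
    (e9 : v153 ^ 2 + v172 * v166 + v167 * v171 + v171 * v166 + v1 ^ 2 + v174 ^ 2 = 0)
    (e10 : v157 * v153 + v154 * v156 + v156 * v153 + v156 ^ 2 + v129 * v125 + v129 ^ 2 = 0)
    (e11 : v157 * v153 + v154 * v156 + v156 * v153 + v153 ^ 2 + v166 ^ 2 + v1 ^ 2 + v129 * v125 + v174 ^ 2 = 0)
    (e13 : v157 * v153 + v154 * v156 + v154 * v153 + v154 ^ 2 + v172 * v166 + v167 * v171 + v167 * v166 +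
      v167 ^ 2 + v2 * v1 + v2 ^ 2 = 0) :
    v1 = 0 ∧ v125 = 0 ∧ v184 = 0 ∧ v174 = 0 ∧ v153 = 0 ∧ v171 = 0 ∧ v166 = 0 ∧ v2 = v154 + v167 ∧ v129 = v156 ∧
      (v156 = 0 ∨ v154 = 0) := by
  have sq : ∀ x y : K, x ^ 2 + y ^ 2 = 0 → x = y := by
    intro x y h
    have h1 : (x + y) ^ 2 = 0 := by linear_combination h + x * y * h2
    have h3 : x + y = 0 := by simpa using h1
    linear_combination h3 - y * h2
  have z174 : v174 = 0 := by simpa using e1
  have z166 : v166 = 0 := by simpa using e2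
  subst z174 z166
  have z153 : v153 = 0 := by simpa using e6
  subst z153
  have z125 : v125 = 0 := by simpa using e4
  subst z125
  have z1 : v1 = 0 := by simpa using e3
  subst z1
  have z184 : v184 = 0 := by simpa using e5
  subst z184
  have z9 : v167 * v171 = 0 := by linear_combination e9
  have z171 : v171 = 0 := by
    have : v171 ^ 2 = 0 := by linear_combination e8 - z9
    simpa using this
  subst z171
  have z11 : v154 * v156 = 0 := by linear_combination e11
  refine ⟨rfl, rfl, rfl, rfl, rfl, rfl, rfl, ?_, ?_, (mul_eq_zero.1 z11).symm⟩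
  · refine sq _ _ ?_
    linear_combination e13 - z11 + v154 * v167 * h2
  · refine sq _ _ ?_
    linear_combination e10 - z11

end Cfsg.Agent.H911.L16
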