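import Cfsg.Agent.H280.L16.Mod

/-!
# S5916 (helper911): families, Frobenius twists, flips and permutations of the indices
-/

set_option autoImplicit false
set_option linter.unusedSectionVars false

namespace Cfsg.Agent.H911.L16

open Matrix
open Cfsg.Agent.H280.L16

section

variable {k : Type*} [Field k] [CharP k 2] {F : Type*} [Field F] [Fintype F] {ι : F →+* k}
  {P : SpecialLinearGroup (Fin 2) F →* Matrix (Fin 2) (Fin 2) k} {y t0 : SpecialLinearGroup (Fin 2) F} {ζ : k}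
  {V : Type*} [AddCommGroup V] [Module k V] {ρ : Representation k (SpecialLinearGroup (Fin 2) F) V}

/-- semilinear maps commuting with the group -/
structure Tw (ρ : Representation k (SpecialLinearGroup (Fin 2) F) V) (Th : V → V) : Prop where
  add : ∀ u v, Th (u + v) = Th u + Th v
  smul : ∀ (c : k) u, Th (c • u) = c ^ 2 • Th u
  comm : ∀ s v, ρ s (Th v) = Th (ρ s v)
  inj : Function.Injective Th
  surj : Function.Surjective Th

variable {Th : V → V}

theorem Tw.zero (h : Tw ρ Th) : Th 0 = 0 := by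
  have := h.smul 0 0
  simpa using this

theorem Tw.sum2 (h : Tw ρ Th) (u : Fin 2 → V) : Th (∑ i, u i) = ∑ i, Th (u i) := by
  rw [Fin.sum_univ_two, Fin.sum_univ_two, h.add]

theorem pw (x : k) (i : ℕ) : (x ^ 2 ^ i) ^ 2 = x ^ 2 ^ (i + 1) := by rw [← pow_mul, ← pow_succ]

/-! ### twists -/

theorem fam1_th (h : Tw ρ Th) {i : ℕ} {w : Fin 2 → V} : Fam1 P ρ (i + 1) (fun a => Th (w a)) ↔ Fam1 P ρ i w := by
  unfold Fam1
  refine forall_congr' fun s => forall_congr' fun a => ?_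
  rw [h.comm, ← h.inj.eq_iff (a := ρ s (w a)), h.sum2]
  simp only [h.smul, pw]

theorem fam2_th (h : Tw ρ Th) {i j : ℕ} {w : Fin 2 → Fin 2 → V} :
    Fam2 P ρ (i + 1) (j + 1) (fun a c => Th (w a c)) ↔ Fam2 P ρ i j w := by
  unfold Fam2
  refine forall_congr' fun s => forall_congr' fun a => forall_congr' fun c => ?_
  rw [h.comm, ← h.inj.eq_iff (a := ρ s (w a c)), h.sum2]
  simp only [h.sum2, h.smul, mul_pow, pw]

theorem fam3_th (h : Tw ρ Th) {i j l : ℕ} {w : Fin 2 → Fin 2 → Fin 2 → V} :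
    Fam3 P ρ (i + 1) (j + 1) (l + 1) (fun a c e => Th (w a c e)) ↔ Fam3 P ρ i j l w := by
  unfold Fam3
  refine forall_congr' fun s => forall_congr' fun a => forall_congr' fun c => forall_congr' fun e => ?_
  rw [h.comm, ← h.inj.eq_iff (a := ρ s (w a c e)), h.sum2]
  simp only [h.sum2, h.smul, mul_pow, pw]

/-! ### statements for all families of a type -/

variable (P ρ)

def All1 (G : V → Prop) (i : ℕ) : Prop := ∀ w, Fam1 P ρ i w → ∀ a, G (w a)

def All2 (G : V → Prop) (i j : ℕ) : Prop := ∀ w, Fam2 P ρ i j w → ∀ a c, G (w a c)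

def All3 (G : V → Prop) (i j l : ℕ) : Prop := ∀ w, Fam3 P ρ i j l w → ∀ a c e, G (w a c e)

variable {P ρ} {G : V → Prop}

theorem All1.th (h : Tw ρ Th) (hG : ∀ v, G v → G (Th v)) {i : ℕ} (hA : All1 P ρ G i) : All1 P ρ G (i + 1) := by
  intro w hw a
  choose w' hw' using fun a => h.surj (w a)
  obtain rfl : (fun a => Th (w' a)) = w := funext hw'
  exact hG _ (hA w' ((fam1_th h).1 hw) a)

theorem All2.th (h : Tw ρ Th) (hG : ∀ v, G v → G (Th v)) {i j : ℕ} (hA : All2 P ρ G i j) :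
    All2 P ρ G (i + 1) (j + 1) := by
  intro w hw a c
  choose w' hw' using fun a c => h.surj (w a c)
  obtain rfl : (fun a c => Th (w' a c)) = w := funext fun a => funext fun c => hw' a c
  exact hG _ (hA w' ((fam2_th h).1 hw) a c)

theorem All3.th (h : Tw ρ Th) (hG : ∀ v, G v → G (Th v)) {i j l : ℕ} (hA : All3 P ρ G i j l) :
    All3 P ρ G (i + 1) (j + 1) (l + 1) := by
  intro w hw a c e
  choose w' hw' using fun a c e => h.surj (w a c e)
  obtain rfl : (fun a c e => Th (w' a c e)) = w := funext fun a => funext fun c => funext fun e => hw' a c e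
  exact hG _ (hA w' ((fam3_th h).1 hw) a c e)

/-! ### flips -/

theorem pw16 (D : PDat ι P y t0 ζ) (s : SpecialLinearGroup (Fin 2) F) (b a : Fin 2) (i : ℕ) :
    (P s b a) ^ 2 ^ (i + 4) = (P s (1 - b) (1 - a)) ^ 2 ^ i := by
  rw [pow_add, mul_comm, pow_mul]
  exact congrArg (· ^ 2 ^ i) (D.fr s b a)

theorem sum_flip {M : Type*} [AddCommMonoid M] (u : Fin 2 → M) : ∑ b, u (1 - b) = ∑ b, u b := by
  rw [Fin.sum_univ_two, Fin.sum_univ_two]
  exact add_comm _ _

theorem flip_flip (a : Fin 2) : 1 - (1 - a) = a := by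
  fin_cases a <;> rfl

theorem fam1_flip (D : PDat ι P y t0 ζ) {i : ℕ} {w : Fin 2 → V} (h : Fam1 P ρ (i + 4) w) :
    Fam1 P ρ i (fun a => w (1 - a)) := by
  intro s a
  rw [h, ← sum_flip]
  simp only [pw16 D, flip_flip]

theorem fam2_flip (D : PDat ι P y t0 ζ) {i j : ℕ} {w : Fin 2 → Fin 2 → V} (h : Fam2 P ρ (i + 4) j w) :
    Fam2 P ρ i j (fun a c => w (1 - a) c) := by
  intro s a c
  rw [h, ← sum_flip]
  simp only [pw16 D, flip_flip]

theorem fam2_unflip (D : PDat ι P y t0 ζ) {i j : ℕ} {w : Fin 2 → Fin 2 → V} (h : Fam2 P ρ i j w) :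
    Fam2 P ρ (i + 4) j (fun a c => w (1 - a) c) := by
  intro s a c
  rw [h, ← sum_flip]
  simp only [pw16 D]

theorem fam2_swap {i j : ℕ} {w : Fin 2 → Fin 2 → V} (h : Fam2 P ρ i j w) : Fam2 P ρ j i (fun a c => w c a) := by
  intro s a c
  rw [h, Finset.sum_comm]
  simp only [mul_comm]

theorem fam1_unflip (D : PDat ι P y t0 ζ) {i : ℕ} {w : Fin 2 → V} (h : Fam1 P ρ i w) :
    Fam1 P ρ (i + 4) (fun a => w (1 - a)) := by
  intro s a
  rw [h, ← sum_flip]
  simp only [pw16 D]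

theorem fam3_unflip (D : PDat ι P y t0 ζ) {i j l : ℕ} {w : Fin 2 → Fin 2 → Fin 2 → V} (h : Fam3 P ρ i j l w) :
    Fam3 P ρ (i + 4) j l (fun a c e => w (1 - a) c e) := by
  intro s a c e
  rw [h, ← sum_flip]
  simp only [pw16 D]

/-- `(i, j, l) → (j, l, i)` -/
theorem fam3_rot {i j l : ℕ} {w : Fin 2 → Fin 2 → Fin 2 → V} (h : Fam3 P ρ i j l w) :
    Fam3 P ρ j l i (fun a c e => w e a c) := by
  intro s a c e
  rw [h]
  rw [Finset.sum_comm]
  refine Finset.sum_congr rfl fun b _ => ?_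
  rw [Finset.sum_comm]
  refine Finset.sum_congr rfl fun d _ => ?_
  refine Finset.sum_congr rfl fun g _ => ?_
  congr 1
  ring

theorem All1.flip (D : PDat ι P y t0 ζ) {i : ℕ} (h : All1 P ρ G (i + 4)) : All1 P ρ G i := by
  intro w hw a
  have := h _ (fam1_unflip D hw) (1 - a)
  simpa only [flip_flip] using this

theorem All2.flip (D : PDat ι P y t0 ζ) {i j : ℕ} (h : All2 P ρ G (i + 4) j) : All2 P ρ G i j := by
  intro w hw a c
  have := h _ (fam2_unflip D hw) (1 - a) c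
  simpa only [flip_flip] using this

theorem All2.swap {i j : ℕ} (h : All2 P ρ G i j) : All2 P ρ G j i := fun w hw a c => h _ (fam2_swap hw) c a

theorem All3.flip (D : PDat ι P y t0 ζ) {i j l : ℕ} (h : All3 P ρ G (i + 4) j l) : All3 P ρ G i j l := by
  intro w hw a c e
  have := h _ (fam3_unflip D hw) (1 - a) c e
  simpa only [flip_flip] using this

/-- `(i, j, l) → (l, i, j)` -/
theorem All3.rot {i j l : ℕ} (h : All3 P ρ G i j l) : All3 P ρ G l i j := fun w hw a c e => h _ (fam3_rot hw) c e a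

/-- all types with one index -/
theorem all1_of (D : PDat ι P y t0 ζ) (h : Tw ρ Th) (hG : ∀ v, G v → G (Th v)) (h0 : All1 P ρ G 0) :
    ∀ i < 4, All1 P ρ G i := by
  have h1 := h0.th h hG
  have h2 := h1.th h hG
  have h3 := h2.th h hG
  intro i hi
  match i, hi with
  | 0, _ => exact h0
  | 1, _ => exact h1
  | 2, _ => exact h2
  | 3, _ => exact h3

/-- the shifts of a pair of exponents -/
theorem all2_of (D : PDat ι P y t0 ζ) (h : Tw ρ Th) (hG : ∀ v, G v → G (Th v)) (h01 : All2 P ρ G 0 1)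
    (h02 : All2 P ρ G 0 2) : ∀ i j, i < j → j < 4 → All2 P ρ G i j := by
  have h12 := h01.th h hG
  have h23 := h12.th h hG
  have h34 := h23.th h hG
  have h13 := h02.th h hG
  have h03 : All2 P ρ G 0 3 := All2.flip D (h34.swap)
  intro i j hij hj
  have : (i = 0 ∧ j = 1) ∨ (i = 0 ∧ j = 2) ∨ (i = 0 ∧ j = 3) ∨ (i = 1 ∧ j = 2) ∨ (i = 1 ∧ j = 3) ∨ (i = 2 ∧ j = 3) := by
    omega
  rcases this with ⟨rfl, rfl⟩ | ⟨rfl, rfl⟩ | ⟨rfl, rfl⟩ | ⟨rfl, rfl⟩ | ⟨rfl, rfl⟩ | ⟨rfl, rfl⟩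
  · exact h01
  · exact h02
  · exact h03
  · exact h12
  · exact h13
  · exact h23

/-- the shifts of three exponents -/
theorem all3_of (D : PDat ι P y t0 ζ) (h : Tw ρ Th) (hG : ∀ v, G v → G (Th v)) (h012 : All3 P ρ G 0 1 2) :
    ∀ i j l, i < j → j < l → l < 4 → All3 P ρ G i j l := by
  have h123 := h012.th h hG
  have h234 := h123.th h hG
  have h345 := h234.th h hG
  have h023 : All3 P ρ G 0 2 3 := All3.flip D h234.rot
  have h013 : All3 P ρ G 0 1 3 := by
    have h1 : All3 P ρ G 4 5 3 := h345.rot.rot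
    have h2 : All3 P ρ G 0 5 3 := All3.flip D h1
    have h3 : All3 P ρ G 5 3 0 := h2.rot.rot
    have h4 : All3 P ρ G 1 3 0 := All3.flip D h3
    exact h4.rot
  intro i j l hij hjl hl
  have : (i = 0 ∧ j = 1 ∧ l = 2) ∨ (i = 0 ∧ j = 1 ∧ l = 3) ∨ (i = 0 ∧ j = 2 ∧ l = 3) ∨ (i = 1 ∧ j = 2 ∧ l = 3) := by
    omega
  rcases this with ⟨rfl, rfl, rfl⟩ | ⟨rfl, rfl, rfl⟩ | ⟨rfl, rfl, rfl⟩ | ⟨rfl, rfl, rfl⟩
  · exact h012
  · exact h013
  · exact h023
  · exact h123

end

end Cfsg.Agent.H911.L16
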