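import Cfsg.Agent.H911.L16.Wts
import Cfsg.Agent.H911.L16.FamT
import Cfsg.Agent.H939.L16.Def2
import Cfsg.Agent.H280.L16.Lng

/-!
# S5916 (helper911): from families to the eliminations

`Gd Fp ta v` : `v` is `Fp^j x` or `T (Fp^j x)` with `x = vR k 0 0 r1 r2 r3 r0` or `x = vN K1 K2 A A2 B`, `A * A2 = 0`.

`glue1`, `glue2`, `glue3` : all vectors of all families (with 1, 2, 3 indices) satisfy `Gd`.
-/

set_option autoImplicit false
set_option maxRecDepth 100000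
set_option linter.unusedSectionVars false

namespace Cfsg.Agent.H911.L16

open Matrix Cfsg Cfsg.Lie
open Cfsg.Agent.H939.L64 (KK E2 LK em aK rE fr brK)
open Cfsg.Agent.H413.L16 (er hv)
open Cfsg.Agent.H939.L16
open Cfsg.Agent.H955.L16
open Cfsg.Agent.H280.L16

/-- the index of a sign -/
def bi (b : Bool) : Fin 2 := if b then 0 else 1

theorem bi_not (b : Bool) : bi (!b) = 1 - bi b := by cases b <;> rfl

def b1 (w : Fin 2 → LK) : Bool → LK := fun a => w (bi a)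

def b2 (w : Fin 2 → Fin 2 → LK) : Bool → Bool → LK := fun a b => w (bi a) (bi b)

def b3 (w : Fin 2 → Fin 2 → Fin 2 → LK) : Bool → Bool → Bool → LK := fun a b c => w (bi a) (bi b) (bi c)

/-- good vectors of class R -/
def GdR (v : LK) : Prop := ∃ k r1 r2 r3 r0 : KK, v = vR k 0 0 r1 r2 r3 r0

/-- vectors of class N -/
def GdN (v : LK) : Prop := ∃ K1 K2 A A2 B : KK, A * A2 = 0 ∧ v = vN K1 K2 A A2 B

/-- the solutions of `[v, t v] = 0` -/
structure Sol (ta : LK →ₗ[KK] LK) : Prop where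
  one : ∀ v ∈ Wt 1, brK v (T ta v) = 0 →
    ∃ k o1 o3 r1 r2 r3 r0 : KK, RelR o1 o3 r1 r3 ∧ v = vR k o1 o3 r1 r2 r3 r0
  three : ∀ v ∈ Wt 3, brK v (T ta v) = 0 → ∃ K1 K2 A A2 B : KK, A * A2 = 0 ∧ v = vN K1 K2 A A2 B

variable {F : Type} [Field F] [Fintype F] {H : Subgroup E2} {f : SpecialLinearGroup (Fin 2) F →* E2}
  {y t0 : SpecialLinearGroup (Fin 2) F} {z : ↥(chevE8.group KK)} {ζ' : KK} {Fp : LK → LK} {ta : LK →ₗ[KK] LK}

theorem tw_fp (L : Lsit H f y t0 z ζ' Fp ta) : Tw (rz z f) Fp where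
  add := L.ops.add
  smul := L.ops.smul
  comm := rz_fp L
  inj := L.ops.inj
  surj := fp_surj L

theorem fp_zero (L : Lsit H f y t0 z ζ' Fp ta) : Fp 0 = 0 := (tw_fp L).zero

/-- `t0` in the frame -/
theorem T_fp (L : Lsit H f y t0 z ζ' Fp ta) (hT : ∀ v, rz z f t0 v = T ta v) (v : LK) :
    T ta (Fp v) = Fp (T ta v) := by
  rw [← hT, ← hT, rz_fp L]

theorem T_it (L : Lsit H f y t0 z ζ' Fp ta) (hT : ∀ v, rz z f t0 v = T ta v) (j : ℕ) (v : LK) :
    T ta (Fp^[j] v) = Fp^[j] (T ta v) := by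
  induction j generalizing v with
  | zero => rfl
  | succ j ih => rw [Function.iterate_succ_apply, Function.iterate_succ_apply, ih, T_fp L hT]

theorem pow17 (L : Lsit H f y t0 z ζ' Fp ta) {n m : ℕ} (h : n % 17 = m % 17) : ζ' ^ n = ζ' ^ m := by
  have h1 : ζ' ^ 17 = 1 := L.prim.pow_eq_one
  rw [← Nat.div_add_mod n 17, ← Nat.div_add_mod m 17, pow_add, pow_add, pow_mul, pow_mul, h1, one_pow, one_pow, h]

/-- untwisting an eigenvector -/
theorem lift (L : Lsit H f y t0 z ζ' Fp ta) (hT : ∀ v, rz z f t0 v = T ta v) (c : ℕ) :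
    ∀ (j : ℕ) {n : ℕ} {v : LK}, rz z f y v = ζ' ^ n • v → n % 17 = (2 ^ j * c) % 17 → brK v (T ta v) = 0 →
      ∃ u, v = Fp^[j] u ∧ rz z f y u = ζ' ^ c • u ∧ brK u (T ta u) = 0 := by
  intro j
  induction j with
  | zero =>
    intro n v h hn hb
    refine ⟨v, rfl, ?_, hb⟩
    rw [h, pow17 L (n := n) (m := c) (by rw [hn, pow_zero, one_mul])]
  | succ j ih =>
    intro n v h hn hb
    obtain ⟨v', rfl⟩ := fp_surj L v
    have h1 : rz z f y (Fp v') = ζ' ^ (2 * (2 ^ j * c)) • Fp v' := by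
      rw [h, pow17 L (n := n) (m := 2 * (2 ^ j * c)) (by rw [hn, pow_succ]; ring_nf)]
    have h2 := fp_eigen_inv L h1
    have h3 : brK v' (T ta v') = 0 := by
      apply L.ops.inj
      rw [L.ops.br, fp_zero L, ← T_fp L hT]
      exact hb
    obtain ⟨u, hu, hu1, hu2⟩ := ih h2 rfl h3
    refine ⟨u, ?_, hu1, hu2⟩
    rw [Function.iterate_succ_apply', ← hu]

theorem solR (L : Lsit H f y t0 z ζ' Fp ta) (hT : ∀ v, rz z f t0 v = T ta v) (hs : Sol ta) (j : ℕ) {n : ℕ} {v : LK}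
    (h : rz z f y v = ζ' ^ n • v) (hn : n % 17 = (2 ^ j * 1) % 17) (hb : brK v (T ta v) = 0) :
    ∃ k o1 o3 r1 r2 r3 r0 : KK, RelR o1 o3 r1 r3 ∧ v = Fp^[j] (vR k o1 o3 r1 r2 r3 r0) := by
  obtain ⟨u, hu, hu1, hu2⟩ := lift L hT 1 j h hn hb
  have h1 : u ∈ Wt ((1 : ℕ) : ZMod 17) := mem_Wt L (by decide) hu1
  obtain ⟨k, o1, o3, r1, r2, r3, r0, hr, e⟩ := hs.one u h1 hu2
  exact ⟨k, o1, o3, r1, r2, r3, r0, hr, by rw [hu, e]⟩

theorem solN (L : Lsit H f y t0 z ζ' Fp ta) (hT : ∀ v, rz z f t0 v = T ta v) (hs : Sol ta) (j : ℕ) {n : ℕ} {v : LK}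
    (h : rz z f y v = ζ' ^ n • v) (hn : n % 17 = (2 ^ j * 3) % 17) (hb : brK v (T ta v) = 0) :
    ∃ K1 K2 A A2 B : KK, A * A2 = 0 ∧ v = Fp^[j] (vN K1 K2 A A2 B) := by
  obtain ⟨u, hu, hu1, hu2⟩ := lift L hT 3 j h hn hb
  have h1 : u ∈ Wt ((3 : ℕ) : ZMod 17) := mem_Wt L (by decide) hu1
  obtain ⟨K1, K2, A, A2, B, hr, e⟩ := hs.three u h1 hu2
  exact ⟨K1, K2, A, A2, B, hr, by rw [hu, e]⟩

/-! ### good vectors -/

theorem good_fp (L : Lsit H f y t0 z ζ' Fp ta) (hT : ∀ v, rz z f t0 v = T ta v) (v : LK) (h : Good Fp ta v) :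
    Good Fp ta (Fp v) := by
  obtain ⟨j, x, hx, rfl | rfl⟩ := h
  · exact ⟨j + 1, x, hx, Or.inl (Function.iterate_succ_apply' _ _ _).symm⟩
  · refine ⟨j + 1, x, hx, Or.inr ?_⟩
    rw [Function.iterate_succ_apply', T_fp L hT]

theorem T_T (hT : ∀ v, rz z f t0 v = T ta v) (ht : t0 * t0 = 1) (v : LK) : T ta (T ta v) = v := by
  rw [← hT, ← hT]
  show (rz z f t0 * rz z f t0) v = v
  rw [← map_mul, ht, map_one]
  rfl

theorem good_T (hT : ∀ v, rz z f t0 v = T ta v) (ht : t0 * t0 = 1) {v : LK} (h : Good Fp ta v) :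
    Good Fp ta (T ta v) := by
  obtain ⟨j, x, hx, rfl | rfl⟩ := h
  · exact ⟨j, x, hx, Or.inr rfl⟩
  · exact ⟨j, x, hx, Or.inl (T_T hT ht _)⟩

theorem good_R {x : LK} (j : ℕ) (h : GdR x) : Good Fp ta (Fp^[j] x) := ⟨j, x, Or.inl h, Or.inl rfl⟩

theorem good_N {x : LK} (j : ℕ) (h : GdN x) : Good Fp ta (Fp^[j] x) := ⟨j, x, Or.inr h, Or.inl rfl⟩

/-! ### the families in the frame -/

section

variable {P : SpecialLinearGroup (Fin 2) F →* Matrix (Fin 2) (Fin 2) KK} {ι : F →+* KK} {ζ : KK}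
  {ρ : Representation KK (SpecialLinearGroup (Fin 2) F) LK}

/-- the exponent of the eigenvalue -/
def ex (m : ℕ) (a : Fin 2) : ℕ := if a = 0 then m else 16 * m

theorem P_y (D : PDat ι P y t0 ζ) {m : ℕ} (hζ : ζ = ζ' ^ m) (h17 : ζ' ^ 17 = 1) (b a : Fin 2) :
    P y b a = if b = a then ζ' ^ ex m a else 0 := by
  have h1 : ζ⁻¹ = ζ' ^ (16 * m) := by
    apply inv_eq_of_mul_eq_one_right
    rw [hζ, ← pow_add, show m + 16 * m = 17 * m by ring, pow_mul, h17, one_pow]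
  match b, a with
  | 0, 0 => rw [D.y00]; exact hζ
  | 0, 1 => exact D.y01
  | 1, 0 => exact D.y10
  | 1, 1 => rw [D.y11]; exact h1

theorem P_t (D : PDat ι P y t0 ζ) (b a : Fin 2) : P t0 b a = if b = 1 - a then 1 else 0 := by
  rw [D.t]
  match b, a with
  | 0, 0 => rfl
  | 0, 1 => rfl
  | 1, 0 => rfl
  | 1, 1 => rfl

theorem f1_y (D : PDat ι P y t0 ζ) {m : ℕ} (hζ : ζ = ζ' ^ m) (h17 : ζ' ^ 17 = 1) {i : ℕ} {w : Fin 2 → LK}
    (hw : Fam1 P ρ i w) (a : Fin 2) : ρ y (w a) = ζ' ^ (ex m a * 2 ^ i) • w a := by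
  rw [hw, Finset.sum_eq_single a]
  · rw [P_y D hζ h17, if_pos rfl, ← pow_mul]
  · intro b _ hb
    rw [P_y D hζ h17, if_neg hb, zero_pow (pow_ne_zero _ two_ne_zero), zero_smul]
  · intro h
    exact absurd (Finset.mem_univ _) h

theorem f1_t (D : PDat ι P y t0 ζ) {i : ℕ} {w : Fin 2 → LK} (hw : Fam1 P ρ i w) (a : Fin 2) :
    ρ t0 (w a) = w (1 - a) := by
  rw [hw, Finset.sum_eq_single (1 - a)]
  · rw [P_t D, if_pos rfl, one_pow, one_smul]
  · intro b _ hb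
    rw [P_t D, if_neg hb, zero_pow (pow_ne_zero _ two_ne_zero), zero_smul]
  · intro h
    exact absurd (Finset.mem_univ _) h

theorem f2_y (D : PDat ι P y t0 ζ) {m : ℕ} (hζ : ζ = ζ' ^ m) (h17 : ζ' ^ 17 = 1) {i j : ℕ} {w : Fin 2 → Fin 2 → LK}
    (hw : Fam2 P ρ i j w) (a c : Fin 2) : ρ y (w a c) = ζ' ^ (ex m a * 2 ^ i + ex m c * 2 ^ j) • w a c := by
  rw [hw, Finset.sum_eq_single a, Finset.sum_eq_single c]
  · rw [P_y D hζ h17, P_y D hζ h17, if_pos rfl, if_pos rfl, ← pow_mul, ← pow_mul, pow_add]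
  · intro b _ hb
    rw [P_y D hζ h17 b, if_neg hb, zero_pow (pow_ne_zero _ two_ne_zero), mul_zero, zero_smul]
  · intro h
    exact absurd (Finset.mem_univ _) h
  · intro b _ hb
    refine Finset.sum_eq_zero fun d _ => ?_
    rw [P_y D hζ h17 b, if_neg hb, zero_pow (pow_ne_zero _ two_ne_zero), zero_mul, zero_smul]
  · intro h
    exact absurd (Finset.mem_univ _) h

theorem f2_t (D : PDat ι P y t0 ζ) {i j : ℕ} {w : Fin 2 → Fin 2 → LK} (hw : Fam2 P ρ i j w) (a c : Fin 2) :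
    ρ t0 (w a c) = w (1 - a) (1 - c) := by
  rw [hw, Finset.sum_eq_single (1 - a), Finset.sum_eq_single (1 - c)]
  · rw [P_t D, P_t D, if_pos rfl, if_pos rfl, one_pow, one_pow, one_mul, one_smul]
  · intro b _ hb
    rw [P_t D b, if_neg hb, zero_pow (pow_ne_zero _ two_ne_zero), mul_zero, zero_smul]
  · intro h
    exact absurd (Finset.mem_univ _) h
  · intro b _ hb
    refine Finset.sum_eq_zero fun d _ => ?_
    rw [P_t D b, if_neg hb, zero_pow (pow_ne_zero _ two_ne_zero), zero_mul, zero_smul]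
  · intro h
    exact absurd (Finset.mem_univ _) h

theorem f3_y (D : PDat ι P y t0 ζ) {m : ℕ} (hζ : ζ = ζ' ^ m) (h17 : ζ' ^ 17 = 1) {i j l : ℕ}
    {w : Fin 2 → Fin 2 → Fin 2 → LK} (hw : Fam3 P ρ i j l w) (a c e : Fin 2) :
    ρ y (w a c e) = ζ' ^ (ex m a * 2 ^ i + ex m c * 2 ^ j + ex m e * 2 ^ l) • w a c e := by
  rw [hw, Finset.sum_eq_single a, Finset.sum_eq_single c, Finset.sum_eq_single e]
  · rw [P_y D hζ h17, P_y D hζ h17, P_y D hζ h17, if_pos rfl, if_pos rfl, if_pos rfl, ← pow_mul, ← pow_mul, ← pow_mul,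
      pow_add, pow_add]
  · intro b _ hb
    rw [P_y D hζ h17 b, if_neg hb, zero_pow (pow_ne_zero _ two_ne_zero), mul_zero, zero_smul]
  · intro h
    exact absurd (Finset.mem_univ _) h
  · intro b _ hb
    refine Finset.sum_eq_zero fun d _ => ?_
    rw [P_y D hζ h17 b, if_neg hb, zero_pow (pow_ne_zero _ two_ne_zero), mul_zero, zero_mul, zero_smul]
  · intro h
    exact absurd (Finset.mem_univ _) h
  · intro b _ hb
    refine Finset.sum_eq_zero fun d _ => Finset.sum_eq_zero fun d' _ => ?_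
    rw [P_y D hζ h17 b, if_neg hb, zero_pow (pow_ne_zero _ two_ne_zero), zero_mul, zero_mul, zero_smul]
  · intro h
    exact absurd (Finset.mem_univ _) h

theorem f3_t (D : PDat ι P y t0 ζ) {i j l : ℕ} {w : Fin 2 → Fin 2 → Fin 2 → LK} (hw : Fam3 P ρ i j l w)
    (a c e : Fin 2) : ρ t0 (w a c e) = w (1 - a) (1 - c) (1 - e) := by
  rw [hw, Finset.sum_eq_single (1 - a), Finset.sum_eq_single (1 - c), Finset.sum_eq_single (1 - e)]
  · rw [P_t D, P_t D, P_t D, if_pos rfl, if_pos rfl, if_pos rfl, one_pow, one_pow, one_pow, one_mul, one_mul, one_smul]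
  · intro b _ hb
    rw [P_t D b, if_neg hb, zero_pow (pow_ne_zero _ two_ne_zero), mul_zero, zero_smul]
  · intro h
    exact absurd (Finset.mem_univ _) h
  · intro b _ hb
    refine Finset.sum_eq_zero fun d _ => ?_
    rw [P_t D b, if_neg hb, zero_pow (pow_ne_zero _ two_ne_zero), mul_zero, zero_mul, zero_smul]
  · intro h
    exact absurd (Finset.mem_univ _) h
  · intro b _ hb
    refine Finset.sum_eq_zero fun d _ => Finset.sum_eq_zero fun d' _ => ?_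
    rw [P_t D b, if_neg hb, zero_pow (pow_ne_zero _ two_ne_zero), zero_mul, zero_mul, zero_smul]
  · intro h
    exact absurd (Finset.mem_univ _) h

/-- what is known about the families (helper280) -/
structure ModF (Fp : LK → LK) (P : SpecialLinearGroup (Fin 2) F →* Matrix (Fin 2) (Fin 2) KK)
    (ρ : Representation KK (SpecialLinearGroup (Fin 2) F) LK) (n : ℕ) : Prop where
  one : n = 1 → ∀ w, Fam1 P ρ 0 w → SS1 (b1 w) ∧ INV1 Fp (b1 w)
  two1 : n = 2 → ∀ w, Fam2 P ρ 0 1 w → SS2 (b2 w) ∧ INV2 Fp (b2 w) ∧ SIG Fp (b2 w)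
  two2 : n = 2 → ∀ w, Fam2 P ρ 0 2 w → SS2 (b2 w)
  three : n = 3 → ∀ w, Fam3 P ρ 0 1 2 w →
    SS3 (b3 w) ∧ SA Fp (b3 w) ∧ SB Fp (b3 w) ∧ (w ≠ 0 → ∀ a c e, w a c e ≠ 0)

/-- the eliminations (helper955) -/
structure Elim (Fp : LK → LK) (ta : LK →ₗ[KK] LK) : Prop where
  R0 : ElimR0 Fp ta
  N02 : ElimN02 Fp
  R01 : ElimR01 Fp ta
  N01 : ElimN01 Fp ta
  R012 : ElimR012 Fp ta
  N012 : ElimN012 Fp ta

/-! ### the equations for the twisted families -/

section Twist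

variable (L : Lsit H f y t0 z ζ' Fp ta)

include L

theorem ss2_fp {s : Bool → Bool → LK} (h : SS2 s) : SS2 fun a b => Fp (s a b) := by
  intro a b c d
  show brK (Fp (s a b)) (Fp (s c d)) = 0
  rw [← L.ops.br, h, fp_zero L]

theorem inv2_fp {s : Bool → Bool → LK} (h : INV2 Fp s) : INV2 Fp fun a b => Fp (s a b) := by
  unfold INV2 at h ⊢
  have h1 := congrArg Fp h
  simp only [Fintype.sum_bool, L.ops.add, L.ops.br, fp_zero L] at h1 ⊢
  exact h1

theorem sig_fp {s : Bool → Bool → LK} (h : SIG Fp s) : SIG Fp fun a b => Fp (s a b) := by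
  unfold SIG sg at h ⊢
  have h1 := congrArg Fp h
  simp only [Fintype.sum_bool, L.ops.add, L.ops.br, fp_zero L] at h1 ⊢
  exact h1

theorem ss3_fp {s : Bool → Bool → Bool → LK} (h : SS3 s) : SS3 fun a b c => Fp (s a b c) := by
  intro a b c a' b' c'
  show brK (Fp (s a b c)) (Fp (s a' b' c')) = 0
  rw [← L.ops.br, h, fp_zero L]

theorem sa_fp {s : Bool → Bool → Bool → LK} (h : SA Fp s) : SA Fp fun a b c => Fp (s a b c) := by
  intro a d
  have h1 := congrArg Fp (h a d)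
  simp only [Fintype.sum_bool, L.ops.add, L.ops.br, fp_zero L] at h1 ⊢
  exact h1

theorem sb_fp {s : Bool → Bool → Bool → LK} (h : SB Fp s) : SB Fp fun a b c => Fp (s a b c) := by
  intro b d
  have h1 := congrArg Fp (h b d)
  simp only [Fintype.sum_bool, L.ops.add, L.ops.br, fp_zero L] at h1 ⊢
  exact h1

end Twist

theorem vR_add (k k' r1 r1' r2 r2' r3 r3' r0 r0' : KK) :
    vR k 0 0 r1 r2 r3 r0 + vR k' 0 0 r1' r2' r3' r0' =
      vR (k + k') 0 0 (r1 + r1') (r2 + r2') (r3 + r3') (r0 + r0') := by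
  unfold vR
  module

theorem vR_smul (c k r1 r2 r3 r0 : KK) :
    c • vR k 0 0 r1 r2 r3 r0 = vR (c * k) 0 0 (c * r1) (c * r2) (c * r3) (c * r0) := by
  unfold vR
  module

theorem vR_zero : vR 0 0 0 0 0 0 0 = 0 := by
  unfold vR
  module

theorem GdR.add {v w : LK} (hv : GdR v) (hw : GdR w) : GdR (v + w) := by
  obtain ⟨k, r1, r2, r3, r0, rfl⟩ := hv
  obtain ⟨k', r1', r2', r3', r0', rfl⟩ := hw
  exact ⟨_, _, _, _, _, vR_add _ _ _ _ _ _ _ _ _ _⟩

theorem GdR.smul (c : KK) {v : LK} (hv : GdR v) : GdR (c • v) := by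
  obtain ⟨k, r1, r2, r3, r0, rfl⟩ := hv
  exact ⟨_, _, _, _, _, vR_smul _ _ _ _ _ _⟩

theorem GdR.zero : GdR (0 : LK) := ⟨0, 0, 0, 0, 0, vR_zero.symm⟩

/-- three values -/
def n3 (a b c : KK) : ℕ → KK
  | 0 => a
  | 1 => b
  | _ => c

theorem n3_all {Q : ℕ → Prop} (h0 : Q 0) (h1 : Q 1) (h2 : ∀ i, Q (i + 2)) : ∀ i, Q i
  | 0 => h0
  | 1 => h1
  | i + 2 => h2 i

section Cases

variable (L : Lsit H f y t0 z ζ' Fp ta) (hT : ∀ v, rz z f t0 v = T ta v) (ht : t0 * t0 = 1) (hs : Sol ta)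
  (E : Elim Fp ta)

include L hT ht hs E

/-- class R, one index -/
theorem all1R (D : PDat ι P y t0 ζ) (hζ : ζ = ζ' ^ 1) (M : ModF Fp P (rz z f) 1) :
    All1 P (rz z f) (Good Fp ta) 0 := by
  have h17 : ζ' ^ 17 = 1 := L.prim.pow_eq_one
  intro w hw
  have ht0 : w 1 = T ta (w 0) := by rw [← hT, f1_t D hw]; rfl
  obtain ⟨hss, hinv⟩ := M.one rfl w hw
  have g0 : Good Fp ta (w 0) := by
    obtain ⟨k, o1, o3, r1, r2, r3, r0, hr, e⟩ := solR L hT hs 0 (f1_y D hζ h17 hw 0) (by decide)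
      (by rw [← ht0]; exact hss true false)
    obtain ⟨h1, h2⟩ := E.R0 (b1 w) k o1 o3 r1 r2 r3 r0 hr e ht0 hss hinv
    subst h1 h2
    exact good_R 0 ⟨k, r1, r2, r3, r0, e⟩
  intro a
  match a with
  | 0 => exact g0
  | 1 => rw [ht0]; exact good_T hT ht g0

/-- class N, one index -/
theorem all1N (D : PDat ι P y t0 ζ) (hζ : ζ = ζ' ^ 3) (M : ModF Fp P (rz z f) 1) :
    All1 P (rz z f) (Good Fp ta) 0 := by
  have h17 : ζ' ^ 17 = 1 := L.prim.pow_eq_one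
  intro w hw
  have ht0 : w 1 = T ta (w 0) := by rw [← hT, f1_t D hw]; rfl
  obtain ⟨hss, hinv⟩ := M.one rfl w hw
  have g0 : Good Fp ta (w 0) := by
    obtain ⟨K1, K2, A, A2, B, hr, e⟩ := solN L hT hs 0 (f1_y D hζ h17 hw 0) (by decide)
      (by rw [← ht0]; exact hss true false)
    exact e ▸ good_N 0 ⟨K1, K2, A, A2, B, hr, rfl⟩
  intro a
  match a with
  | 0 => exact g0
  | 1 => rw [ht0]; exact good_T hT ht g0

theorem good2 {w : Fin 2 → Fin 2 → LK} {P : SpecialLinearGroup (Fin 2) F →* Matrix (Fin 2) (Fin 2) KK} {ζ : KK}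
    {ι : F →+* KK} (D : PDat ι P y t0 ζ) {i j : ℕ} (hw : Fam2 P (rz z f) i j w)
    (h0 : Good Fp ta (w 0 0)) (h1 : Good Fp ta (w 1 0)) (a c : Fin 2) : Good Fp ta (w a c) := by
  have t00 : w 1 1 = T ta (w 0 0) := by rw [← hT, f2_t D hw]; rfl
  have t10 : w 0 1 = T ta (w 1 0) := by rw [← hT, f2_t D hw]; rfl
  match a, c with
  | 0, 0 => exact h0
  | 0, 1 => rw [t10]; exact good_T hT ht h1
  | 1, 0 => exact h1
  | 1, 1 => rw [t00]; exact good_T hT ht h0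

/-- class R, type `(0,1)` -/
theorem all01R (D : PDat ι P y t0 ζ) (hζ : ζ = ζ' ^ 1) (M : ModF Fp P (rz z f) 2) :
    All2 P (rz z f) (Good Fp ta) 0 1 := by
  have h17 : ζ' ^ 17 = 1 := L.prim.pow_eq_one
  intro w hw
  obtain ⟨hss, hinv, hsig⟩ := M.two1 rfl w hw
  have t00 : w 1 1 = T ta (w 0 0) := by rw [← hT, f2_t D hw]; rfl
  have t10 : w 0 1 = T ta (w 1 0) := by rw [← hT, f2_t D hw]; rfl
  have tt : ∀ a b, b2 w (!a) (!b) = T ta (b2 w a b) := by
    intro a b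
    show w (bi !a) (bi !b) = T ta (w (bi a) (bi b))
    rw [← hT, f2_t D hw, bi_not, bi_not]
  obtain ⟨K1, K2, A, A2, B, hn, en⟩ := solN L hT hs 0 (f2_y D hζ h17 hw 0 0) (by decide)
    (by rw [← t00]; exact hss true true false false)
  obtain ⟨k, o1, o3, r1, r2, r3, r0, hr, er⟩ := solR L hT hs 0 (f2_y D hζ h17 hw 1 0) (by decide)
    (by rw [← t10]; exact hss false true true false)
  obtain ⟨h1, h2⟩ := E.R01 (b2 w) k o1 o3 r1 r2 r3 r0 K1 K2 A A2 B hr hn er en tt hss hinv hsig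
  subst h1 h2
  exact good2 L hT ht hs E D hw (en ▸ good_N 0 ⟨K1, K2, A, A2, B, hn, rfl⟩) (er ▸ good_R 0 ⟨k, r1, r2, r3, r0, rfl⟩)

/-- class R, type `(0,2)` -/
theorem all02R (D : PDat ι P y t0 ζ) (hζ : ζ = ζ' ^ 1) (M : ModF Fp P (rz z f) 2) :
    All2 P (rz z f) (Good Fp ta) 0 2 := by
  have h17 : ζ' ^ 17 = 1 := L.prim.pow_eq_one
  intro w hw
  have hss := M.two2 rfl w hw
  have t11 : w 0 0 = T ta (w 1 1) := by rw [← hT, f2_t D hw]; rfl
  have t10 : w 0 1 = T ta (w 1 0) := by rw [← hT, f2_t D hw]; rfl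
  obtain ⟨K1, K2, A, A2, B, hn, en⟩ := solN L hT hs 2 (f2_y D hζ h17 hw 1 1) (by decide)
    (by rw [← t11]; exact hss false false true true)
  obtain ⟨K1', K2', A', A2', B', hn', en'⟩ := solN L hT hs 0 (f2_y D hζ h17 hw 1 0) (by decide)
    (by rw [← t10]; exact hss false true true false)
  refine good2 L hT ht hs E D hw ?_ (en' ▸ good_N 0 ⟨K1', K2', A', A2', B', hn', rfl⟩)
  rw [t11, en]
  exact good_T hT ht (good_N 2 ⟨K1, K2, A, A2, B, hn, rfl⟩)

/-- class R, type `(0,1,2)` -/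
theorem all012R (D : PDat ι P y t0 ζ) (hζ : ζ = ζ' ^ 1) (M : ModF Fp P (rz z f) 3) :
    All3 P (rz z f) (Good Fp ta) 0 1 2 := by
  have h17 : ζ' ^ 17 = 1 := L.prim.pow_eq_one
  intro w hw
  obtain ⟨hss, hsa, hsb, hne⟩ := M.three rfl w hw
  have tt0 : ∀ a b c, w (1 - a) (1 - b) (1 - c) = T ta (w a b c) := by
    intro a b c
    rw [← hT, f3_t D hw]
  have tt : ∀ a b c, b3 w (!a) (!b) (!c) = T ta (b3 w a b c) := by
    intro a b c
    show w (bi !a) (bi !b) (bi !c) = T ta (w (bi a) (bi b) (bi c))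
    rw [← tt0, bi_not, bi_not, bi_not]
  by_cases h0 : w = 0
  · intro a c e
    rw [h0]
    exact good_R 0 GdR.zero
  have hne' : ∀ a b c, b3 w a b c ≠ 0 := fun a b c => hne h0 _ _ _
  obtain ⟨K1, K2, A, A2, B, hn, en⟩ := solN L hT hs 3 (f3_y D hζ h17 hw 0 0 0) (by decide)
    (by rw [← tt0]; exact hss true true true false false false)
  obtain ⟨K1', K2', A', A2', B', hn', en'⟩ := solN L hT hs 0 (f3_y D hζ h17 hw 0 1 0) (by decide)
    (by rw [← tt0]; exact hss true false true false true false)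
  obtain ⟨K1'', K2'', A'', A2'', B'', hn'', en''⟩ := solN L hT hs 2 (f3_y D hζ h17 hw 0 1 1) (by decide)
    (by rw [← tt0]; exact hss true false false false true true)
  obtain ⟨k, o1, o3, r1, r2, r3, r0, hr, er⟩ := solR L hT hs 0 (f3_y D hζ h17 hw 1 1 0) (by decide)
    (by rw [← tt0]; exact hss false false true true true false)
  have e100 : w 1 0 0 = T ta (w 0 1 1) := by rw [← tt0]; rfl
  obtain ⟨h1, h2⟩ := E.R012 (b3 w) k o1 o3 r1 r2 r3 r0 (n3 K1 K1' K1'') (n3 K2 K2' K2'') (n3 A A' A'')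
    (n3 A2 A2' A2'') (n3 B B' B'') hr (n3_all hn hn' fun _ => hn'') en en'
    (show w 1 0 0 = T ta (Fp^[2] (vN K1'' K2'' A'' A2'' B'')) by rw [e100, en'']) er hne' tt hss hsa hsb
  subst h1 h2
  have g000 : Good Fp ta (w 0 0 0) := en ▸ good_N 3 ⟨K1, K2, A, A2, B, hn, rfl⟩
  have g010 : Good Fp ta (w 0 1 0) := en' ▸ good_N 0 ⟨K1', K2', A', A2', B', hn', rfl⟩
  have g011 : Good Fp ta (w 0 1 1) := en'' ▸ good_N 2 ⟨K1'', K2'', A'', A2'', B'', hn'', rfl⟩
  have g110 : Good Fp ta (w 1 1 0) := er ▸ good_R 0 ⟨k, r1, r2, r3, r0, rfl⟩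
  intro a c e
  match a, c, e with
  | 0, 0, 0 => exact g000
  | 0, 1, 0 => exact g010
  | 0, 1, 1 => exact g011
  | 1, 1, 0 => exact g110
  | 1, 1, 1 =>
    have : w 1 1 1 = T ta (w 0 0 0) := tt0 0 0 0
    rw [this]
    exact good_T hT ht g000
  | 1, 0, 1 =>
    have : w 1 0 1 = T ta (w 0 1 0) := tt0 0 1 0
    rw [this]
    exact good_T hT ht g010
  | 1, 0, 0 =>
    rw [e100]
    exact good_T hT ht g011
  | 0, 0, 1 =>
    have : w 0 0 1 = T ta (w 1 1 0) := tt0 1 1 0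
    rw [this]
    exact good_T hT ht g110

/-- class N, type `(1,2)` -/
theorem all12N (D : PDat ι P y t0 ζ) (hζ : ζ = ζ' ^ 3) (M : ModF Fp P (rz z f) 2) :
    All2 P (rz z f) (Good Fp ta) 1 2 := by
  have h17 : ζ' ^ 17 = 1 := L.prim.pow_eq_one
  intro w hw
  choose w' hw' using fun a c => fp_surj L (w a c)
  obtain rfl : (fun a c => Fp (w' a c)) = w := funext fun a => funext fun c => hw' a c
  have hw0 := (fam2_th (tw_fp L)).1 hw
  obtain ⟨hss0, hinv0, hsig0⟩ := M.two1 rfl w' hw0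
  set w : Fin 2 → Fin 2 → LK := fun a c => Fp (w' a c) with hwd
  have hss : SS2 (b2 w) := ss2_fp L hss0
  have hinv : INV2 Fp (b2 w) := inv2_fp L hinv0
  have hsig : SIG Fp (b2 w) := sig_fp L hsig0
  have t00 : w 1 1 = T ta (w 0 0) := by rw [← hT, f2_t D hw]; rfl
  have t10 : w 0 1 = T ta (w 1 0) := by rw [← hT, f2_t D hw]; rfl
  have tt : ∀ a b, b2 w (!a) (!b) = T ta (b2 w a b) := by
    intro a b
    show w (bi !a) (bi !b) = T ta (w (bi a) (bi b))
    rw [← hT, f2_t D hw, bi_not, bi_not]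
  obtain ⟨k, o1, o3, r1, r2, r3, r0, hr, er⟩ := solR L hT hs 0 (f2_y D hζ h17 hw 0 0) (by decide)
    (by rw [← t00]; exact hss true true false false)
  obtain ⟨K1, K2, A, A2, B, hn, en⟩ := solN L hT hs 1 (f2_y D hζ h17 hw 1 0) (by decide)
    (by rw [← t10]; exact hss false true true false)
  obtain ⟨h1, h2⟩ := E.N01 (b2 w) k o1 o3 r1 r2 r3 r0 K1 K2 A A2 B hr hn er en tt hss hinv hsig
  subst h1 h2
  exact good2 L hT ht hs E D hw (er ▸ good_R 0 ⟨k, r1, r2, r3, r0, rfl⟩) (en ▸ good_N 1 ⟨K1, K2, A, A2, B, hn, rfl⟩)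

/-- class N, type `(3,5)` -/
theorem all35N (D : PDat ι P y t0 ζ) (hζ : ζ = ζ' ^ 3) (M : ModF Fp P (rz z f) 2) :
    All2 P (rz z f) (Good Fp ta) 3 5 := by
  have h17 : ζ' ^ 17 = 1 := L.prim.pow_eq_one
  have tw := tw_fp L
  have fz := fp_zero L
  have hFrM : FrM (rz z f) Fp := ⟨L.ops.add, L.ops.smul, L.ops.inj, fun s v => (rz_fp L s v).symm⟩
  -- the families of type `(0,2)`
  have key : ∀ w : Fin 2 → Fin 2 → LK, Fam2 P (rz z f) 0 2 w →
      GdR (Fp^[3] (w 0 0)) ∧ ∃ x, GdR x ∧ Fp^[3] (w 1 0) = Fp^[2] x := by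
    intro w hw
    have h1 := lang02 hFrM D hw
    clear hw
    induction h1 using Submodule.span_induction with
    | mem s hs' =>
      obtain ⟨hw, hrat⟩ := hs'
      have hw3 : Fam2 P (rz z f) 3 5 fun a c => Fp^[3] (s a c) :=
        (fam2_th tw).2 ((fam2_th tw).2 ((fam2_th tw).2 hw))
      have hss := ss2_fp L (ss2_fp L (ss2_fp L (M.two2 rfl s hw)))
      have t00 : Fp^[3] (s 1 1) = T ta (Fp^[3] (s 0 0)) := by rw [← hT, f2_t D hw3]; rfl
      obtain ⟨k, o1, o3, r1, r2, r3, r0, hr, er⟩ := solR L hT hs 0 (f2_y D hζ h17 hw3 0 0) (by decide)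
        (by rw [← t00]; exact hss true true false false)
      have hrat' : Fp (Fp (Fp^[3] (s 0 0))) = Fp^[3] (s 1 0) := by
        have h2 : s 1 0 = Fp (Fp (s 0 0)) := (hrat 0 0).symm
        rw [h2]
        rfl
      have hb : brK (vR k o1 o3 r1 r2 r3 r0) (Fp (Fp (vR k o1 o3 r1 r2 r3 r0))) = 0 := by
        have h3 := hss true true false true
        have h4 : Fp^[3] (s 0 0) = vR k o1 o3 r1 r2 r3 r0 := er
        rw [← h4, hrat']
        exact h3
      obtain ⟨h1, h2⟩ := E.N02 k o1 o3 r1 r2 r3 r0 hr hb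
      subst h1 h2
      refine ⟨⟨k, r1, r2, r3, r0, er⟩, _, ⟨k, r1, r2, r3, r0, rfl⟩, ?_⟩
      rw [← hrat']
      exact congrArg (fun v => Fp (Fp v)) er
    | zero =>
      have h3 : Fp^[3] (0 : LK) = 0 := by
        show Fp (Fp (Fp 0)) = 0
        rw [fz, fz, fz]
      refine ⟨?_, 0, GdR.zero, ?_⟩
      · show GdR (Fp^[3] (0 : LK))
        rw [h3]
        exact GdR.zero
      · show Fp^[3] (0 : LK) = Fp (Fp 0)
        rw [h3, fz, fz]
    | add u v _ _ hu hv =>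
      obtain ⟨hu1, x, hx, hu2⟩ := hu
      obtain ⟨hv1, x', hx', hv2⟩ := hv
      have h3 : ∀ a b : LK, Fp^[3] (a + b) = Fp^[3] a + Fp^[3] b := by
        intro a b
        show Fp (Fp (Fp (a + b))) = _
        rw [L.ops.add, L.ops.add, L.ops.add]
        rfl
      refine ⟨?_, x + x', hx.add hx', ?_⟩
      · show GdR (Fp^[3] (u 0 0 + v 0 0))
        rw [h3]
        exact hu1.add hv1
      · show Fp^[3] (u 1 0 + v 1 0) = Fp (Fp (x + x'))
        rw [h3, hu2, hv2, L.ops.add, L.ops.add]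
        rfl
    | smul c u _ hu =>
      obtain ⟨hu1, x, hx, hu2⟩ := hu
      have h3 : ∀ a : LK, Fp^[3] (c • a) = ((c ^ 2) ^ 2) ^ 2 • Fp^[3] a := by
        intro a
        show Fp (Fp (Fp (c • a))) = _
        rw [L.ops.smul, L.ops.smul, L.ops.smul]
        rfl
      refine ⟨?_, c ^ 2 • x, hx.smul _, ?_⟩
      · show GdR (Fp^[3] (c • u 0 0))
        rw [h3]
        exact hu1.smul _
      · show Fp^[3] (c • u 1 0) = Fp (Fp (c ^ 2 • x))
        rw [h3, hu2, L.ops.smul, L.ops.smul]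
        rfl
  intro w hw
  have hs : ∀ v : LK, ∃ u, Fp^[3] u = v := by
    intro v
    obtain ⟨v1, rfl⟩ := fp_surj L v
    obtain ⟨v2, rfl⟩ := fp_surj L v1
    obtain ⟨v3, rfl⟩ := fp_surj L v2
    exact ⟨v3, rfl⟩
  choose w' hw' using fun a c => hs (w a c)
  obtain rfl : (fun a c => Fp^[3] (w' a c)) = w := funext fun a => funext fun c => hw' a c
  have hw0 : Fam2 P (rz z f) 0 2 w' := (fam2_th tw).1 ((fam2_th tw).1 ((fam2_th tw).1 hw))
  obtain ⟨h1, x, hx, h2⟩ := key w' hw0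
  refine good2 L hT ht ‹Sol ta› E D hw (good_R 0 h1) ?_
  show Good Fp ta (Fp^[3] (w' 1 0))
  rw [h2]
  exact good_R 2 hx

/-- class N, type `(3,4,5)` -/
theorem all345N (D : PDat ι P y t0 ζ) (hζ : ζ = ζ' ^ 3) (M : ModF Fp P (rz z f) 3) :
    All3 P (rz z f) (Good Fp ta) 3 4 5 := by
  have h17 : ζ' ^ 17 = 1 := L.prim.pow_eq_one
  have tw := tw_fp L
  intro w hw
  have hsj : ∀ v : LK, ∃ u, Fp (Fp (Fp u)) = v := by
    intro v
    obtain ⟨v1, rfl⟩ := fp_surj L v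
    obtain ⟨v2, rfl⟩ := fp_surj L v1
    obtain ⟨v3, rfl⟩ := fp_surj L v2
    exact ⟨v3, rfl⟩
  choose w' hw' using fun a c e => hsj (w a c e)
  obtain rfl : (fun a c e => Fp (Fp (Fp (w' a c e)))) = w :=
    funext fun a => funext fun c => funext fun e => hw' a c e
  have hw0 : Fam3 P (rz z f) 0 1 2 w' := (fam3_th tw).1 ((fam3_th tw).1 ((fam3_th tw).1 hw))
  obtain ⟨hss0, hsa0, hsb0, hne0⟩ := M.three rfl w' hw0
  set w : Fin 2 → Fin 2 → Fin 2 → LK := fun a c e => Fp (Fp (Fp (w' a c e))) with hwd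
  have hss : SS3 (b3 w) := ss3_fp L (ss3_fp L (ss3_fp L hss0))
  have hsa : SA Fp (b3 w) := sa_fp L (sa_fp L (sa_fp L hsa0))
  have hsb : SB Fp (b3 w) := sb_fp L (sb_fp L (sb_fp L hsb0))
  have tt0 : ∀ a b c, w (1 - a) (1 - b) (1 - c) = T ta (w a b c) := by
    intro a b c
    rw [← hT, f3_t D hw]
  have tt : ∀ a b c, b3 w (!a) (!b) (!c) = T ta (b3 w a b c) := by
    intro a b c
    show w (bi !a) (bi !b) (bi !c) = T ta (w (bi a) (bi b) (bi c))
    rw [← tt0, bi_not, bi_not, bi_not]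
  by_cases h0 : w' = 0
  · intro a c e
    have h1 : w a c e = 0 := by
      show Fp (Fp (Fp (w' a c e))) = 0
      rw [h0]
      show Fp (Fp (Fp 0)) = 0
      rw [fp_zero L, fp_zero L, fp_zero L]
    rw [h1]
    exact good_R 0 GdR.zero
  have hne : ∀ a b c, w a b c ≠ 0 := by
    intro a b c h1
    apply hne0 h0 a b c
    apply L.ops.inj
    apply L.ops.inj
    apply L.ops.inj
    rw [fp_zero L, fp_zero L, fp_zero L]
    exact h1
  have hne' : ∀ a b c, b3 w a b c ≠ 0 := fun a b c => hne _ _ _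
  -- `w 1 1 1` has weight 2
  obtain ⟨k, o1, o3, r1, r2, r3, r0, hr, er⟩ := solR L hT hs 1 (f3_y D hζ h17 hw 1 1 1) (by decide)
    (by rw [← tt0]; exact hss false false false true true true)
  obtain ⟨k', o1', o3', r1', r2', r3', r0', hr', er'⟩ := solR L hT hs 2 (f3_y D hζ h17 hw 0 1 0) (by decide)
    (by rw [← tt0]; exact hss true false true false true false)
  obtain ⟨k'', o1'', o3'', r1'', r2'', r3'', r0'', hr'', er''⟩ := solR L hT hs 0 (f3_y D hζ h17 hw 1 0 0) (by decide)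
    (by rw [← tt0]; exact hss false true true true false false)
  obtain ⟨K1, K2, A, A2, B, hn, en⟩ := solN L hT hs 3 (f3_y D hζ h17 hw 1 1 0) (by decide)
    (by rw [← tt0]; exact hss false false true true true false)
  have e000 : w 0 0 0 = T ta (w 1 1 1) := by rw [← tt0]; rfl
  have hE := E.N012 (b3 w) (n3 k k' k'') (n3 o1 o1' o1'') (n3 o3 o3' o3'') (n3 r1 r1' r1'') (n3 r2 r2' r2'')
    (n3 r3 r3' r3'') (n3 r0 r0' r0'') K1 K2 A A2 B (n3_all hr hr' fun _ => hr'') hn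
    (show w 0 0 0 = T ta (Fp^[1] (vR k o1 o3 r1 r2 r3 r0)) by rw [e000, er]) er' er'' en hne' tt hss hsa hsb
  have h1 : o1 = 0 ∧ o3 = 0 := hE 0 (by norm_num)
  have h2 : o1' = 0 ∧ o3' = 0 := hE 1 (by norm_num)
  have h3 : o1'' = 0 ∧ o3'' = 0 := hE 2 (by norm_num)
  obtain ⟨rfl, rfl⟩ := h1
  obtain ⟨rfl, rfl⟩ := h2
  obtain ⟨rfl, rfl⟩ := h3
  have g111 : Good Fp ta (w 1 1 1) := er ▸ good_R 1 ⟨k, r1, r2, r3, r0, rfl⟩
  have g010 : Good Fp ta (w 0 1 0) := er' ▸ good_R 2 ⟨k', r1', r2', r3', r0', rfl⟩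
  have g100 : Good Fp ta (w 1 0 0) := er'' ▸ good_R 0 ⟨k'', r1'', r2'', r3'', r0'', rfl⟩
  have g110 : Good Fp ta (w 1 1 0) := en ▸ good_N 3 ⟨K1, K2, A, A2, B, hn, rfl⟩
  intro a c e
  match a, c, e with
  | 1, 1, 1 => exact g111
  | 0, 1, 0 => exact g010
  | 1, 0, 0 => exact g100
  | 1, 1, 0 => exact g110
  | 0, 0, 0 =>
    rw [e000]
    exact good_T hT ht g111
  | 1, 0, 1 =>
    have : w 1 0 1 = T ta (w 0 1 0) := tt0 0 1 0
    rw [this]
    exact good_T hT ht g010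
  | 0, 1, 1 =>
    have : w 0 1 1 = T ta (w 1 0 0) := tt0 1 0 0
    rw [this]
    exact good_T hT ht g100
  | 0, 0, 1 =>
    have : w 0 0 1 = T ta (w 1 1 0) := tt0 1 1 0
    rw [this]
    exact good_T hT ht g110

theorem all2N (D : PDat ι P y t0 ζ) (hζ : ζ = ζ' ^ 3) (M : ModF Fp P (rz z f) 2) :
    ∀ i j, i < j → j < 4 → All2 P (rz z f) (Good Fp ta) i j := by
  have tw := tw_fp L
  have hG := good_fp L hT
  have h12 := all12N L hT ht hs E D hζ M
  have h35 := all35N L hT ht hs E D hζ M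
  have h23 := h12.th tw hG
  have h34 := h23.th tw hG
  have h45 := h34.th tw hG
  have h46 := h35.th tw hG
  have h57 := h46.th tw hG
  have h03 : All2 P (rz z f) (Good Fp ta) 0 3 := All2.flip D h34.swap
  have h01 : All2 P (rz z f) (Good Fp ta) 0 1 := by
    have a1 : All2 P (rz z f) (Good Fp ta) 0 5 := All2.flip D h45
    have a2 : All2 P (rz z f) (Good Fp ta) 1 0 := All2.flip D a1.swap
    exact a2.swap
  have h02 : All2 P (rz z f) (Good Fp ta) 0 2 := by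
    have a1 : All2 P (rz z f) (Good Fp ta) 0 6 := All2.flip D h46
    have a2 : All2 P (rz z f) (Good Fp ta) 2 0 := All2.flip D a1.swap
    exact a2.swap
  have h13 : All2 P (rz z f) (Good Fp ta) 1 3 := by
    have a1 : All2 P (rz z f) (Good Fp ta) 1 7 := All2.flip D h57
    have a2 : All2 P (rz z f) (Good Fp ta) 3 1 := All2.flip D a1.swap
    exact a2.swap
  intro i j hij hj
  have : (i = 0 ∧ j = 1) ∨ (i = 0 ∧ j = 2) ∨ (i = 0 ∧ j = 3) ∨ (i = 1 ∧ j = 2) ∨ (i = 1 ∧ j = 3) ∨ (i = 2 ∧ j = 3) := by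
    omega
  rcases this with ⟨rfl, rfl⟩ | ⟨rfl, rfl⟩ | ⟨rfl, rfl⟩ | ⟨rfl, rfl⟩ | ⟨rfl, rfl⟩ | ⟨rfl, rfl⟩
  · exact h01
  · exact h02
  · exact h03
  · exact h12
  · exact h13
  · exact h23

theorem all3N (D : PDat ι P y t0 ζ) (hζ : ζ = ζ' ^ 3) (M : ModF Fp P (rz z f) 3) :
    ∀ i j l, i < j → j < l → l < 4 → All3 P (rz z f) (Good Fp ta) i j l := by
  have tw := tw_fp L
  have hG := good_fp L hT
  have h345 := all345N L hT ht hs E D hζ M
  have h456 := h345.th tw hG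
  have h567 := h456.th tw hG
  have h678 := h567.th tw hG
  have h013 : All3 P (rz z f) (Good Fp ta) 0 1 3 := by
    have a1 : All3 P (rz z f) (Good Fp ta) 1 3 4 := All3.flip D h345.rot
    exact All3.flip D a1.rot
  have h012 : All3 P (rz z f) (Good Fp ta) 0 1 2 := by
    have a1 : All3 P (rz z f) (Good Fp ta) 0 5 6 := All3.flip D h456
    have a2 : All3 P (rz z f) (Good Fp ta) 2 0 5 := All3.flip D a1.rot
    have a3 : All3 P (rz z f) (Good Fp ta) 1 2 0 := All3.flip D a2.rot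
    exact a3.rot
  have h123 : All3 P (rz z f) (Good Fp ta) 1 2 3 := by
    have a1 : All3 P (rz z f) (Good Fp ta) 1 6 7 := All3.flip D h567
    have a2 : All3 P (rz z f) (Good Fp ta) 3 1 6 := All3.flip D a1.rot
    have a3 : All3 P (rz z f) (Good Fp ta) 2 3 1 := All3.flip D a2.rot
    exact a3.rot
  have h023 : All3 P (rz z f) (Good Fp ta) 0 2 3 := by
    have a1 : All3 P (rz z f) (Good Fp ta) 2 7 8 := All3.flip D h678
    have a2 : All3 P (rz z f) (Good Fp ta) 4 2 7 := All3.flip D a1.rot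
    have a3 : All3 P (rz z f) (Good Fp ta) 0 2 7 := All3.flip D a2
    have a4 : All3 P (rz z f) (Good Fp ta) 3 0 2 := All3.flip D a3.rot
    exact a4.rot.rot
  intro i j l hij hjl hl
  have : (i = 0 ∧ j = 1 ∧ l = 2) ∨ (i = 0 ∧ j = 1 ∧ l = 3) ∨ (i = 0 ∧ j = 2 ∧ l = 3) ∨ (i = 1 ∧ j = 2 ∧ l = 3) := by
    omega
  rcases this with ⟨rfl, rfl, rfl⟩ | ⟨rfl, rfl, rfl⟩ | ⟨rfl, rfl, rfl⟩ | ⟨rfl, rfl, rfl⟩
  · exact h012
  · exact h013
  · exact h023
  · exact h123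

/-- **all vectors of all families are good** -/
theorem glue (D : PDat ι P y t0 ζ) (hζ : ζ = ζ' ∨ ζ = ζ' ^ 3) {n : ℕ} (M : ModF Fp P (rz z f) n) :
    ∀ v ∈ FamV P (rz z f) n, Good Fp ta v := by
  have tw := tw_fp L
  have hG := good_fp L hT
  rintro v (⟨rfl, i, hi, w, hw, a, rfl⟩ | ⟨rfl, i, j, hij, hj, w, hw, a, b, rfl⟩ |
    ⟨rfl, i, j, l, hij, hjl, hl, w, hw, a, b, c, rfl⟩)
  · have h0 : All1 P (rz z f) (Good Fp ta) 0 := by
      rcases hζ with h | h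
      · exact all1R L hT ht hs E D (by rw [h, pow_one]) M
      · exact all1N L hT ht hs E D h M
    exact all1_of D tw hG h0 i hi w hw a
  · rcases hζ with h | h
    · have h' : ζ = ζ' ^ 1 := by rw [h, pow_one]
      exact all2_of D tw hG (all01R L hT ht hs E D h' M) (all02R L hT ht hs E D h' M) i j hij hj w hw a b
    · exact all2N L hT ht hs E D h M i j hij hj w hw a b
  · rcases hζ with h | h
    · have h' : ζ = ζ' ^ 1 := by rw [h, pow_one]
      exact all3_of D tw hG (all012R L hT ht hs E D h' M) i j l hij hjl hl w hw a b c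
    · exact all3N L hT ht hs E D h M i j l hij hjl hl w hw a b c

end Cases

end

end Cfsg.Agent.H911.L16
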