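import Cfsg.Agent.H955.L16.Stmt

/-!
# S5916 (helper911): eigenvectors of the element of order 17 and the weight spaces
-/

set_option autoImplicit false
set_option maxRecDepth 100000

namespace Cfsg.Agent.H911.L16

open Matrix Cfsg Cfsg.Lie
open Cfsg.Agent.H939.L64 (KK E2 LK em aK rE fr brK frE frE_rE frE_apply rE_apply)
open Cfsg.Agent.H413.L16 (er hv hr tg nr single_eq er_of)
open Cfsg.Agent.H939.L16
open Cfsg.Agent.H955.L16

theorem aK_mul (g h : ↥(chevE8.group KK)) (v : LK) : aK (g * h) v = aK g (aK h v) := by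
  unfold aK
  rw [Subgroup.coe_mul, Units.val_mul, Matrix.mulVec_mulVec]

theorem aK_one (v : LK) : aK 1 v = v := by
  unfold aK
  rw [Subgroup.coe_one, Units.val_one, Matrix.one_mulVec]

variable {F : Type} [Field F] [Fintype F] {H : Subgroup E2} {f : SpecialLinearGroup (Fin 2) F →* E2}
  {y t0 : SpecialLinearGroup (Fin 2) F} {z : ↥(chevE8.group KK)} {ζ' : KK} {Fp : LK → LK} {ta : LK →ₗ[KK] LK}

/-- the Frobenius map of the frame commutes with the group -/
theorem rz_fp (L : Lsit H f y t0 z ζ' Fp ta) (s : SpecialLinearGroup (Fin 2) F) (v : LK) :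
    rz z f s (Fp v) = Fp (rz z f s v) := by
  have h1 : v = aK z⁻¹ (aK z v) := by rw [← aK_mul, inv_mul_cancel, aK_one]
  rw [h1, ← L.frob, rz_apply, rz_apply, ← aK_mul, ← aK_mul, mul_assoc, mul_inv_cancel, mul_one, aK_mul, aK_mul,
    ← L.frob]
  congr 1
  exact (frE_rE (f s) (aK z v)).symm

theorem fp_surj (L : Lsit H f y t0 z ζ' Fp ta) : Function.Surjective Fp := by
  intro v
  refine ⟨aK z⁻¹ (frE.symm (aK z v)), ?_⟩
  rw [← L.frob]
  have h1 : fr (frE.symm (aK z v)) = aK z v := frE.apply_symm_apply _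
  rw [h1, ← aK_mul, inv_mul_cancel, aK_one]

theorem fp_inj (L : Lsit H f y t0 z ζ' Fp ta) : Function.Injective Fp := L.ops.inj

/-- the element of order 17 is diagonal -/
theorem rz_y (L : Lsit H f y t0 z ζ' Fp ta) (v : LK) (k : chevE8.Idx) :
    rz z f y v k = Sum.elim (fun _ => (1 : KK)) (fun s : Fin chevE8.nroots => ζ' ^ (wt16 s).val) k * v k := by
  let Dm : LK →ₗ[KK] LK :=
    LinearMap.pi fun k => (Sum.elim (fun _ => (1 : KK)) (fun s : Fin chevE8.nroots => ζ' ^ (wt16 s).val) k) •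
      LinearMap.proj k
  have hD : ∀ (v : LK) k, Dm v k =
      Sum.elim (fun _ => (1 : KK)) (fun s : Fin chevE8.nroots => ζ' ^ (wt16 s).val) k * v k := fun v k => rfl
  have h1 : rz z f y = Dm := by
    refine LinearMap.pi_ext' fun i => ?_
    refine LinearMap.ext_ring ?_
    rw [LinearMap.comp_apply, LinearMap.comp_apply, LinearMap.single_apply, single_eq]
    rcases i with i | s
    · show rz z f y (hv (Pi.single i 1)) = Dm (hv (Pi.single i 1))
      rw [L.yhv]
      funext k
      rw [hD]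
      rcases k with k | k
      · rw [Sum.elim_inl, one_mul]
      · show (0 : KK) = _ * 0
        rw [mul_zero]
    · show rz z f y (er s) = Dm (er s)
      rw [L.yer _ (lt_of_lt_of_eq s.2 nr)]
      funext k
      rw [hD, Pi.smul_apply, smul_eq_mul, er_of s.2]
      by_cases hk : k = Sum.inr s
      · subst hk
        rfl
      · rw [Pi.single_eq_of_ne hk, mul_zero, mul_zero]
  rw [h1]
  exact hD v k

theorem eq_sum (v : LK) : v = hv (fun i => v (Sum.inl i)) + ∑ s : Fin chevE8.nroots, v (Sum.inr s) • er s := by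
  funext k
  rw [Pi.add_apply, Finset.sum_apply]
  rcases k with i | s
  · rw [Finset.sum_eq_zero, add_zero]
    · rfl
    · intro s _
      rw [Pi.smul_apply, er_of s.2, Pi.single_eq_of_ne (by simp), smul_zero]
  · rw [Finset.sum_eq_single s]
    · rw [Pi.smul_apply, er_of s.2, Pi.single_eq_same, smul_eq_mul, mul_one]
      show _ = (0 : KK) + _
      rw [zero_add]
    · intro b _ hb
      rw [Pi.smul_apply, er_of b.2, Pi.single_eq_of_ne, smul_zero]
      intro h
      exact hb (Sum.inr.inj h).symm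
    · intro h
      exact absurd (Finset.mem_univ _) h

/-- eigenvectors lie in the weight spaces -/
theorem mem_Wt (L : Lsit H f y t0 z ζ' Fp ta) {n : ℕ} (hn : (n : ZMod 17) ≠ 0) {v : LK}
    (h : rz z f y v = ζ' ^ n • v) : v ∈ Wt (n : ZMod 17) := by
  have hc : ∀ i, v (Sum.inl i) = 0 := by
    intro i
    have h1 := congrFun h (Sum.inl i)
    rw [rz_y L, Sum.elim_inl, one_mul, Pi.smul_apply, smul_eq_mul] at h1
    have h2 : (1 - ζ' ^ n) * v (Sum.inl i) = 0 := by linear_combination h1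
    refine (mul_eq_zero.1 h2).resolve_left fun h3 => hn ?_
    have h4 : ζ' ^ n = 1 := (sub_eq_zero.1 h3).symm
    exact (ZMod.natCast_eq_zero_iff n 17).2 ((L.prim.pow_eq_one_iff_dvd n).1 h4)
  have hs : ∀ s : Fin chevE8.nroots, v (Sum.inr s) ≠ 0 → wt16 s = (n : ZMod 17) := by
    intro s hs
    have h1 := congrFun h (Sum.inr s)
    rw [rz_y L, Sum.elim_inr, Pi.smul_apply, smul_eq_mul] at h1
    have h2 := mul_right_cancel₀ hs h1
    have h3 : ζ' ^ (wt16 s).val = ζ' ^ (n : ZMod 17).val := by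
      rw [h2, ZMod.val_natCast]
      exact (pow_mod_orderOf ζ' n).symm.trans (by rw [← L.prim.eq_orderOf])
    exact ZMod.val_injective 17 (L.prim.pow_inj (ZMod.val_lt _) (ZMod.val_lt _) h3)
  rw [eq_sum v]
  have h0 : hv (fun i => v (Sum.inl i)) = 0 := by
    funext k
    rcases k with i | s
    · exact hc i
    · rfl
  rw [h0, zero_add]
  refine Submodule.sum_mem _ fun s _ => ?_
  by_cases h1 : v (Sum.inr s) = 0
  · rw [h1, zero_smul]
    exact Submodule.zero_mem _
  · exact Submodule.smul_mem _ _ (Submodule.subset_span ⟨s, lt_of_lt_of_eq s.2 nr, hs s h1, rfl⟩)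

/-- eigenvectors are eigenvectors of the double weight under the Frobenius map -/
theorem fp_eigen (L : Lsit H f y t0 z ζ' Fp ta) {n : ℕ} {v : LK} (h : rz z f y v = ζ' ^ n • v) :
    rz z f y (Fp v) = ζ' ^ (2 * n) • Fp v := by
  rw [rz_fp L, h, L.ops.smul, ← pow_mul, mul_comm]

theorem fp_eigen_inv (L : Lsit H f y t0 z ζ' Fp ta) {n : ℕ} {v : LK} (h : rz z f y (Fp v) = ζ' ^ (2 * n) • Fp v) :
    rz z f y v = ζ' ^ n • v := by
  apply L.ops.inj
  rw [← rz_fp L, h, L.ops.smul, ← pow_mul, mul_comm]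

end Cfsg.Agent.H911.L16
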